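import Cfsg.Agent.Lib.TwBN.Mat
import Cfsg.Agent.Lib.StBlocks.SLSpl
import Cfsg.Agent.Lib.StGen.Final

/-!
A `(B,N)`-pair from root data in a finite group of matrices: the root groups and their complements are
described by the inversions of the simple reflections; the Steinberg character of the central quotient.
-/

set_option autoImplicit false
set_option linter.unusedSectionVars false
set_option linter.unusedSimpArgs false

namespace Cfsg.Agent.Lib.TwBN.RootGen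

open Matrix Cfsg Cfsg.Agent.Lib.TwBN.Mat Cfsg.Agent.Lib.ChevBN.Core
open Cfsg.Agent.Lib.BNPair.Basic Cfsg.Agent.Lib.ChevOrder.BNCount

variable {G : Type*} [Group G] [Finite G] {I : Type*} [Fintype I] [DecidableEq I] {F : Type*} [Field F]
variable {φ : G →* Matrix I I F} {o : I → ℕ}

/-- The inversions of a permutation. -/
def IsInv (o : I → ℕ) (τ : Equiv.Perm I) (r c : I) : Prop := o r < o c ∧ o (τ c) < o (τ r)

theorem Xs_mul (τ : Equiv.Perm I) {u v : G}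
    (hu : IsU φ o u ∧ ∀ r c, r ≠ c → ¬ IsInv o τ r c → φ u r c = 0)
    (hv : IsU φ o v ∧ ∀ r c, r ≠ c → ¬ IsInv o τ r c → φ v r c = 0) :
    IsU φ o (u * v) ∧ ∀ r c, r ≠ c → ¬ IsInv o τ r c → φ (u * v) r c = 0 := by
  refine ⟨hu.1.mul hv.1, fun r c hrc hnot => ?_⟩
  rw [map_mul, Matrix.mul_apply]
  refine Finset.sum_eq_zero fun x _ => ?_
  by_contra h
  have h1 := left_ne_zero_of_mul h
  have h2 := right_ne_zero_of_mul h
  have a1 : r = x ∨ IsInv o τ r x := by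
    by_contra h3
    push_neg at h3
    exact h1 (hu.2 r x h3.1 h3.2)
  have a2 : x = c ∨ IsInv o τ x c := by
    by_contra h3
    push_neg at h3
    exact h2 (hv.2 x c h3.1 h3.2)
  rcases a1 with rfl | a1
  · rcases a2 with rfl | a2
    · exact hrc rfl
    · exact hnot a2
  · rcases a2 with rfl | a2
    · exact hnot a1
    · exact hnot ⟨a1.1.trans a2.1, a2.2.trans a1.2⟩

theorem Ys_mul (τ : Equiv.Perm I) {u v : G}
    (hu : IsU φ o u ∧ ∀ r c, IsInv o τ r c → φ u r c = 0)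
    (hv : IsU φ o v ∧ ∀ r c, IsInv o τ r c → φ v r c = 0) :
    IsU φ o (u * v) ∧ ∀ r c, IsInv o τ r c → φ (u * v) r c = 0 := by
  refine ⟨hu.1.mul hv.1, fun r c hrc => ?_⟩
  rw [map_mul, Matrix.mul_apply]
  refine Finset.sum_eq_zero fun x _ => ?_
  by_cases h3 : x = r
  · subst h3
    rw [hv.2 _ _ hrc, mul_zero]
  by_cases h4 : x = c
  · subst h4
    rw [hu.2 _ _ hrc, zero_mul]
  by_cases h1 : o x ≤ o r
  · rw [hu.1.1 r x (Ne.symm h3) h1, zero_mul]
  by_cases h2 : o c ≤ o x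
  · rw [hv.1.1 x c h4 h2, mul_zero]
  have h5 : o r < o x := not_le.1 h1
  have h6 : o x < o c := not_le.1 h2
  by_cases h7 : o (τ x) < o (τ r)
  · rw [hu.2 r x ⟨h5, h7⟩, zero_mul]
  · have h8 : o (τ c) < o (τ x) := lt_of_lt_of_le hrc.2 (not_lt.1 h7)
    rw [hv.2 x c ⟨h6, h8⟩, mul_zero]

theorem isInv_one (τ : Equiv.Perm I) {r c : I} (h : r ≠ c) : (1 : Matrix I I F) r c = 0 :=
  Matrix.one_apply_ne h

variable (φ o) in
/-- The root group. -/
def Xs (τ : Equiv.Perm I) : Subgroup G where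
  carrier := {u | IsU φ o u ∧ ∀ r c, r ≠ c → ¬ IsInv o τ r c → φ u r c = 0}
  mul_mem' := Xs_mul τ
  one_mem' := ⟨isU_one, fun r c h _ => by rw [map_one, Matrix.one_apply_ne h]⟩
  inv_mem' := by
    intro s hs
    exact inv_of_finite
      { carrier := {u | IsU φ o u ∧ ∀ r c, r ≠ c → ¬ IsInv o τ r c → φ u r c = 0}
        mul_mem' := Xs_mul τ
        one_mem' := ⟨isU_one, fun r c h _ => by rw [map_one, Matrix.one_apply_ne h]⟩ } hs

variable (φ o) in
/-- The complement of the root group. -/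
def Ys (τ : Equiv.Perm I) : Subgroup G where
  carrier := {u | IsU φ o u ∧ ∀ r c, IsInv o τ r c → φ u r c = 0}
  mul_mem' := Ys_mul τ
  one_mem' := ⟨isU_one, fun r c h => by
    rw [map_one, Matrix.one_apply_ne]
    rintro rfl
    exact lt_irrefl _ h.1⟩
  inv_mem' := by
    intro s hs
    exact inv_of_finite
      { carrier := {u | IsU φ o u ∧ ∀ r c, IsInv o τ r c → φ u r c = 0}
        mul_mem' := Ys_mul τ
        one_mem' := ⟨isU_one, fun r c h => by
          rw [map_one, Matrix.one_apply_ne]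
          rintro rfl
          exact lt_irrefl _ h.1⟩ } hs

theorem mem_Xs {τ : Equiv.Perm I} {u : G} :
    u ∈ Xs φ o τ ↔ IsU φ o u ∧ ∀ r c, r ≠ c → ¬ IsInv o τ r c → φ u r c = 0 := Iff.rfl

theorem mem_Ys {τ : Equiv.Perm I} {u : G} :
    u ∈ Ys φ o τ ↔ IsU φ o u ∧ ∀ r c, IsInv o τ r c → φ u r c = 0 := Iff.rfl

theorem Ys_conj {τ : Equiv.Perm I} (hτ : τ * τ = 1) (hlev : ∀ r c, o r = o c → o (τ r) = o (τ c)) {g a : G}
    (hg : IsMo φ g τ) (ha : a ∈ Ys φ o τ) : g * a * g⁻¹ ∈ Ys φ o τ := by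
  have e : (τ⁻¹ : Equiv.Perm I) = τ := inv_eq_of_mul_eq_one_left hτ
  have tt : ∀ k, τ (τ k) = k := fun k => by
    have := congrArg (fun f : Equiv.Perm I => f k) hτ
    simpa using this
  have hne : ∀ r c, r ≠ c → τ r ≠ τ c := fun r c h h' => h (τ.injective h')
  constructor
  · refine conj_isU hg ha.1.2 (fun r c hrc hc => ?_)
    rw [e]
    by_cases h : o (τ c) ≤ o (τ r)
    · exact ha.1.1 _ _ (hne r c hrc) h
    · have h1 : o c < o r := by
        rcases lt_or_eq_of_le hc with h2 | h2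
        · exact h2
        · exact absurd (hlev c r h2).le h
      exact ha.2 _ _ ⟨not_le.1 h, by rw [tt, tt]; exact h1⟩
  · intro r c hrc
    have h2 : r ≠ c := fun e1 => by
      subst e1
      exact lt_irrefl _ hrc.1
    rw [conj_apply' hg, e, ha.1.1 _ _ (hne r c h2) hrc.2.le]
    simp

theorem Xs_conj_H {τ : Equiv.Perm I} {h x : G} (hh : IsMo φ h 1)
    (hx : x ∈ Xs φ o τ) : h * x * h⁻¹ ∈ Xs φ o τ := by
  refine ⟨Hh_norm_U hh hx.1, fun r c hrc hnot => ?_⟩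
  rw [conj_apply' hh]
  simp only [inv_one, Equiv.Perm.coe_one, id_eq]
  rw [hx.2 r c hrc hnot]
  simp

theorem conj_Xs {τ : Equiv.Perm I} {g x : G} {π : Equiv.Perm I}
    (hg : IsMo φ g π) (hx : x ∈ Xs φ o τ) (h : ∀ r c, IsInv o τ r c → o (π r) < o (π c)) :
    IsU φ o (g * x * g⁻¹) := by
  refine conj_isU hg hx.1.2 (fun r c hrc hc => ?_)
  have hne : (π⁻¹ : Equiv.Perm I) r ≠ π⁻¹ c := fun e1 => hrc (π⁻¹.injective e1)
  refine hx.2 _ _ hne (fun hinv => ?_)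
  have h1 := h _ _ hinv
  have e1 : ∀ k, π ((π⁻¹ : Equiv.Perm I) k) = k := fun k => π.apply_symm_apply k
  rw [e1, e1] at h1
  omega

/-- Root data. -/
structure RD (φ : G →* Matrix I I F) (o : I → ℕ) (J : Type*) where
  e : J → G
  τ : J → Equiv.Perm I
  he : ∀ j, IsMo φ (e j) (τ j)
  hτ : ∀ j, τ j * τ j = 1
  inj : Function.Injective τ
  lift : ∀ (g : G) (π : Equiv.Perm I), IsMo φ g π → ∃ w ∈ Subgroup.closure (Set.range e), IsMo φ w π
  dec : ∀ j u, IsU φ o u → ∃ a ∈ Ys φ o (τ j), ∃ x ∈ Xs φ o (τ j), u = a * x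
  sl2 : ∀ j, ∀ x ∈ Xs φ o (τ j), e j * x * (e j)⁻¹ = 1 ∨
    ∃ x₁ ∈ Xs φ o (τ j), ∃ h, IsMo φ h 1 ∧ ∃ x₂ ∈ Xs φ o (τ j), e j * x * (e j)⁻¹ = x₁ * e j * h * x₂
  dich : ∀ j (g : G) (π : Equiv.Perm I), IsMo φ g π →
    (∀ r c, IsInv o (τ j) r c → o (π r) < o (π c)) ∨ (∀ r c, IsInv o (τ j) r c → o (π c) < o (π r))
  ne : ∀ j, ∃ x ∈ Xs φ o (τ j), ∃ r c, IsInv o (τ j) r c ∧ φ x r c ≠ 0
  lev : ∀ (g : G) (π : Equiv.Perm I), IsMo φ g π → ∀ r c, o r = o c → o (π r) = o (π c)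

namespace RD

variable {J : Type*} (R : RD φ o J)

theorem e_inj : Function.Injective R.e := by
  intro j j' h
  have h1 := R.he j
  rw [h] at h1
  exact R.inj (h1.unique (R.he j'))

theorem conj_ne' (j : J) : ∃ x ∈ Xs φ o (R.τ j), R.e j * x * (R.e j)⁻¹ ∉ Uu φ o ⊔ Hh φ := by
  obtain ⟨x, hx, r, c, hinv, hrc⟩ := R.ne j
  refine ⟨x, hx, fun hmem => ?_⟩
  have e : (R.τ j)⁻¹ = R.τ j := inv_eq_of_mul_eq_one_left (R.hτ j)
  have tt : ∀ k, R.τ j (R.τ j k) = k := fun k => by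
    have := congrArg (fun f : Equiv.Perm I => f k) (R.hτ j)
    simpa using this
  have h1 := up_of_mem hmem (fun e1 => by
    have := (R.τ j).injective e1
    subst this
    exact lt_irrefl _ hinv.1) hinv.2.le
  rw [conj_apply' (R.he j), e, tt, tt] at h1
  have h2 := (R.he j).ne_zero r
  have h3 := (R.he j).inv.ne_zero' c
  rw [inv_inv] at h3
  exact mul_ne_zero (mul_ne_zero h2 hrc) h3 h1

/-- The root data gives a `RootCore`. -/
noncomputable def core : RootCore G where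
  U := Uu φ o
  H := Hh φ
  N := Nn φ
  S := Set.range R.e
  X := Function.extend R.e (fun j => Xs φ o (R.τ j)) (fun _ => ⊥)
  Y := Function.extend R.e (fun j => Ys φ o (R.τ j)) (fun _ => ⊥)
  H_le_N := Hh_le_Nn
  H_norm_N := fun _ hn _ hh => Hh_norm_Nn hn hh
  H_norm_U := fun h hh u hu => Hh_norm_U hh hu
  BN_inf := inf_eq
  S_sub := by
    rintro _ ⟨j, rfl⟩
    exact ⟨_, R.he j⟩
  S_sq := by
    rintro _ ⟨j, rfl⟩
    have h1 := (R.he j).mul (R.he j)
    rwa [R.hτ j] at h1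
  S_inj := by
    rintro _ ⟨j, rfl⟩ _ ⟨j', rfl⟩ h
    have h1 := (R.he j).inv.mul (R.he j')
    have h2 := h1.unique h
    rw [inv_mul_eq_one] at h2
    rw [R.inj h2]
  S_gen := by
    apply le_antisymm
    · refine sup_le ?_ Hh_le_Nn
      rw [Subgroup.closure_le]
      rintro _ ⟨j, rfl⟩
      exact ⟨_, R.he j⟩
    · rintro g ⟨π, hπ⟩
      obtain ⟨a, ha, ha'⟩ := R.lift g π hπ
      have e : g = a * (a⁻¹ * g) := by group
      rw [e]
      refine Subgroup.mul_mem_sup ha ?_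
      have h1 := ha'.inv.mul hπ
      rwa [inv_mul_cancel] at h1
  X_le := by
    rintro _ ⟨j, rfl⟩ _ hx
    rw [R.e_inj.extend_apply] at hx
    exact hx.1
  Y_le := by
    rintro _ ⟨j, rfl⟩ _ hx
    rw [R.e_inj.extend_apply] at hx
    exact hx.1
  decomp := by
    rintro _ ⟨j, rfl⟩ u hu
    rw [R.e_inj.extend_apply, R.e_inj.extend_apply]
    exact R.dec j u hu
  Y_norm := by
    rintro _ ⟨j, rfl⟩ a ha
    rw [R.e_inj.extend_apply] at ha ⊢
    exact Ys_conj (R.hτ j) (R.lev _ _ (R.he j)) (R.he j) ha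
  H_norm_X := by
    rintro _ ⟨j, rfl⟩ h hh x hx
    rw [R.e_inj.extend_apply] at hx ⊢
    exact Xs_conj_H hh hx
  sl2 := by
    rintro _ ⟨j, rfl⟩ x hx
    rw [R.e_inj.extend_apply] at hx ⊢
    exact R.sl2 j x hx
  dichotomy := by
    rintro _ ⟨j, rfl⟩ n ⟨π, hπ⟩
    rw [R.e_inj.extend_apply]
    have tt : ∀ k, R.τ j (R.τ j k) = k := fun k => by
      have := congrArg (fun f : Equiv.Perm I => f k) (R.hτ j)
      simpa using this
    rcases R.dich j n⁻¹ π⁻¹ hπ.inv with h | h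
    · left
      intro x hx
      have h1 := conj_Xs hπ.inv hx h
      rwa [inv_inv] at h1
    · right
      intro x hx
      have h1 := conj_Xs (hπ.inv.mul (R.he j)) hx (fun r c hinv => by
        simp only [Equiv.Perm.mul_apply]
        exact h _ _ ⟨hinv.2, by rw [tt, tt]; exact hinv.1⟩)
      have e : n⁻¹ * R.e j * x * (n⁻¹ * R.e j)⁻¹ = n⁻¹ * (R.e j * x * (R.e j)⁻¹) * n := by group
      rwa [e] at h1
  conj_ne := by
    rintro _ ⟨j, rfl⟩
    rw [R.e_inj.extend_apply]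
    exact R.conj_ne' j

variable (hG : (Uu φ o ⊔ Hh φ) ⊔ Nn φ = ⊤)

/-- The `(B,N)`-pair. -/
noncomputable def bn : BNPair G := Cfsg.Agent.Lib.StBlocks.SLSpl.toBN R.core hG

theorem bn_B : (R.bn hG).B = Uu φ o ⊔ Hh φ := rfl
theorem bn_N : (R.bn hG).N = Nn φ := rfl
theorem bn_S : (R.bn hG).S = Set.range R.e := rfl
theorem bn_T : (R.bn hG).B ⊓ (R.bn hG).N = Hh φ := inf_eq

/-- At a top element all inversions are reversed. -/
theorem down_of_top {n : G} {π : Equiv.Perm I} (hπ : IsMo φ n π)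
    (htop : ∀ j, len (R.bn hG) (R.e j * n) < len (R.bn hG) n) (j : J) {r c : I}
    (hinv : IsInv o (R.τ j) r c) : o ((π⁻¹ : Equiv.Perm I) c) < o ((π⁻¹ : Equiv.Perm I) r) := by
  rcases R.dich j n⁻¹ π⁻¹ hπ.inv with h | h
  · exfalso
    obtain ⟨x, hx, hnot⟩ := R.conj_ne' j
    have h1 := conj_Xs hπ.inv hx h
    rw [inv_inv] at h1
    have hs : R.e j ∈ (R.bn hG).S := ⟨j, rfl⟩
    have h2 := len_lt_of_conj hs (⟨π, hπ⟩ : n ∈ (R.bn hG).N)
      (Subgroup.mem_sup_left hx.1 : x ∈ (R.bn hG).B) hnot (Subgroup.mem_sup_left h1)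
    have h3 := htop j
    omega
  · exact h _ _ hinv

theorem anti_of_top {n : G} {π : Equiv.Perm I} (hπ : IsMo φ n π)
    (htop : ∀ j, len (R.bn hG) (R.e j * n) < len (R.bn hG) n)
    (hcov : ∀ r c, o c = o r + 1 → ∃ j, IsInv o (R.τ j) r c)
    (hsurj : ∀ i k, k < o i → ∃ l, o l = k) :
    ∀ (k : ℕ) (r c : I), o c = o r + k + 1 →
      o ((π⁻¹ : Equiv.Perm I) c) < o ((π⁻¹ : Equiv.Perm I) r) := by
  intro k
  induction k with
  | zero =>
    intro r c h
    obtain ⟨j, hj⟩ := hcov r c h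
    exact R.down_of_top hG hπ htop j hj
  | succ k ih =>
    intro r c h
    obtain ⟨d, hd⟩ := hsurj c (o r + k + 1) (by omega)
    have h2 := ih r d hd
    obtain ⟨j, hj⟩ := hcov d c (by omega)
    have h3 := R.down_of_top hG hπ htop j hj
    omega

theorem mem_T_of_top {n : G} {π : Equiv.Perm I} (hπ : IsMo φ n π)
    (htop : ∀ j, len (R.bn hG) (R.e j * n) < len (R.bn hG) n)
    (hcov : ∀ r c, o c = o r + 1 → ∃ j, IsInv o (R.τ j) r c)
    (hsurj : ∀ i k, k < o i → ∃ l, o l = k) {x : G} (hx : x ∈ (R.bn hG).B)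
    (hy : n⁻¹ * x * n ∈ (R.bn hG).B) : x ∈ (R.bn hG).B ⊓ (R.bn hG).N := by
  rw [bn_T]
  intro r c
  simp only [Equiv.Perm.one_apply]
  constructor
  · intro h
    by_contra hrc
    by_cases h1 : o r < o c
    · have h2 := R.anti_of_top hG hπ htop hcov hsurj (o c - o r - 1) r c (by omega)
      have h3 := up_of_mem hy (fun e1 => hrc (π⁻¹.injective e1)) h2.le
      have h4 : n⁻¹ * x * n = n⁻¹ * x * (n⁻¹)⁻¹ := by rw [inv_inv]
      rw [h4, conj_apply' hπ.inv] at h3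
      have e1 : ∀ z, π ((π⁻¹ : Equiv.Perm I) z) = z := fun z => π.apply_symm_apply z
      simp only [inv_inv, e1] at h3
      have h5 := hπ.inv.ne_zero' ((π⁻¹ : Equiv.Perm I) r)
      have h6 := hπ.ne_zero' c
      simp only [inv_inv, e1] at h5
      exact mul_ne_zero (mul_ne_zero h5 h) h6 h3
    · exact h (up_of_mem hx hrc (not_lt.1 h1))
  · rintro rfl
    obtain ⟨u, hu, h, hh, rfl⟩ := (R.core).mem_B_iff.1 hx
    have e := IsMo.mul_apply (φ := φ) hh (φ u) r r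
    rw [map_mul, e]
    simp only [Equiv.Perm.one_apply]
    rw [hu.2, one_mul]
    exact (hh r r).2 rfl

/-- The hypotheses for the Steinberg character. -/
theorem hyp (hφ : Function.Injective φ) (p : ℕ) [hp : Fact p.Prime] [CharP F p]
    (hcov : ∀ r c, o c = o r + 1 → ∃ j, IsInv o (R.τ j) r c)
    (hsurj : ∀ i k, k < o i → ∃ l, o l = k) :
    Cfsg.Agent.Lib.StGen.Final.Hyp (R.bn hG) p (Uu φ o) R.e where
  hU := isPGroup_Uu hφ p
  U_le := le_sup_left
  U_norm := by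
    intro b hb u hu
    obtain ⟨u', hu', h, hh, rfl⟩ := (R.core).mem_B_iff.1 hb
    have e : u' * h * u * (u' * h)⁻¹ = u' * (h * u * h⁻¹) * u'⁻¹ := by group
    rw [e]
    exact (Uu φ o).mul_mem ((Uu φ o).mul_mem hu' (Hh_norm_U hh hu)) ((Uu φ o).inv_mem hu')
  B_dec := by
    intro b hb
    obtain ⟨u, hu, h, hh, rfl⟩ := (R.core).mem_B_iff.1 hb
    refine ⟨u, hu, h, ?_, rfl⟩
    rw [bn_T]
    exact hh
  T_cop := by
    rw [bn_T]
    have h := Hh_cop (φ := φ) hφ (p := p)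
    rw [Nat.coprime_comm, hp.out.coprime_iff_not_dvd] at h
    exact h
  he := fun j => ⟨j, rfl⟩
  hes := by
    rintro _ ⟨j, rfl⟩
    exact ⟨j, rfl⟩
  hne := by
    rintro _ ⟨j, rfl⟩
    obtain ⟨x, hx, hnot⟩ := R.conj_ne' j
    exact ⟨x, hx.1, hnot⟩
  hT := by
    intro n hn htop x hx hy
    obtain ⟨π, hπ⟩ := hn
    exact R.mem_T_of_top hG hπ htop hcov hsurj hx hy

include hG in
/-- **The Steinberg character of the central quotient.** -/
theorem quot [Fintype J] [DecidableEq J] (hφ : Function.Injective φ) (p : ℕ) [hp : Fact p.Prime] [CharP F p]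
    (hcov : ∀ r c, o c = o r + 1 → ∃ j, IsInv o (R.τ j) r c)
    (hsurj : ∀ i k, k < o i → ∃ l, o l = k) :
    ∃ χ : (G ⧸ Subgroup.center G) → ℂ, Cfsg.IsIrrCharacter (G ⧸ Subgroup.center G) χ ∧
      ∀ Q : Sylow p (G ⧸ Subgroup.center G), χ 1 = Nat.card Q ∧
        ∀ x : G ⧸ Subgroup.center G, x ∈ Q → x ≠ 1 → χ x = 0 :=
  Cfsg.Agent.Lib.StGen.Final.quot_main (R.bn hG) (R.hyp hG hφ p hcov hsurj)

end RD

end Cfsg.Agent.Lib.TwBN.RootGen
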