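import Mathlib

/-!
Triangular, monomial and diagonal elements of a finite group with a faithful matrix description
`φ : G →* Matrix I I F`, relative to a level function `o` of the index set (not necessarily injective).
-/

set_option autoImplicit false
set_option linter.unusedSectionVars false

namespace Cfsg.Agent.Lib.TwBN.Mat

open Matrix

variable {G I F : Type*} [Group G] [Fintype I] [DecidableEq I] [Field F]
variable (φ : G →* Matrix I I F) (o : I → ℕ)

/-- Upper unitriangular elements. -/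
def IsU (g : G) : Prop := (∀ r c, r ≠ c → o c ≤ o r → φ g r c = 0) ∧ ∀ r, φ g r r = 1

/-- Monomial elements: the nonzero entry of column `c` is in row `π c`. -/
def IsMo (g : G) (π : Equiv.Perm I) : Prop := ∀ r c, φ g r c ≠ 0 ↔ r = π c

variable {φ o}

theorem phi_mul_inv (g : G) : φ g * φ g⁻¹ = 1 := by
  rw [← map_mul, mul_inv_cancel, map_one]

theorem phi_inv_mul (g : G) : φ g⁻¹ * φ g = 1 := by
  rw [← map_mul, inv_mul_cancel, map_one]

theorem isU_one : IsU φ o 1 := by
  constructor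
  · intro r c h _
    simp [Matrix.one_apply, h]
  · intro r
    simp

theorem IsU.mul {g g' : G} (hg : IsU φ o g) (hg' : IsU φ o g') :
    IsU φ o (g * g') := by
  refine ⟨fun r c hrc h => ?_, fun r => ?_⟩
  · rw [map_mul, Matrix.mul_apply]
    apply Finset.sum_eq_zero
    intro k _
    by_cases h0 : k = r
    · subst h0
      rw [hg'.1 _ _ hrc h, mul_zero]
    by_cases h1 : o k ≤ o r
    · rw [hg.1 _ _ (Ne.symm h0) h1, zero_mul]
    · have h2 : k ≠ c := by
        rintro rfl
        exact h1 h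
      rw [hg'.1 _ _ h2 (by omega), mul_zero]
  · rw [map_mul, Matrix.mul_apply, Finset.sum_eq_single r]
    · rw [hg.2, hg'.2, one_mul]
    · intro k _ hk
      by_cases h1 : o k ≤ o r
      · rw [hg.1 _ _ (Ne.symm hk) h1, zero_mul]
      · rw [hg'.1 _ _ hk (by omega), mul_zero]
    · simp

theorem inv_of_finite [Finite G] (M : Submonoid G) {s : G} (hs : s ∈ M) : s⁻¹ ∈ M := by
  have h1 : s⁻¹ = s ^ (orderOf s - 1) := by
    have h0 : 0 < orderOf s := orderOf_pos s
    apply inv_eq_of_mul_eq_one_left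
    rw [← pow_succ, Nat.sub_add_cancel h0, pow_orderOf_eq_one]
  rw [h1]
  exact M.pow_mem hs _

/-! ### Monomial elements -/

theorem isMo_one : IsMo φ (1 : G) 1 := by
  intro r c
  simp [Matrix.one_apply]

theorem IsMo.mul_apply {g : G} {π : Equiv.Perm I} (hg : IsMo φ g π) (M : Matrix I I F) (r c : I) :
    (M * φ g) r c = M r (π c) * φ g (π c) c := by
  rw [Matrix.mul_apply, Finset.sum_eq_single (π c)]
  · intro k _ hk
    have : φ g k c = 0 := by
      by_contra h
      exact hk ((hg k c).1 h)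
    rw [this, mul_zero]
  · simp

theorem IsMo.apply_mul {g : G} {π : Equiv.Perm I} (hg : IsMo φ g π) (M : Matrix I I F) (r c : I) :
    (φ g * M) r c = φ g r (π⁻¹ r) * M (π⁻¹ r) c := by
  rw [Matrix.mul_apply, Finset.sum_eq_single (π⁻¹ r)]
  · intro k _ hk
    have : φ g r k = 0 := by
      by_contra h
      apply hk
      rw [(hg r k).1 h]
      simp
    rw [this, zero_mul]
  · simp

theorem IsMo.ne_zero {g : G} {π : Equiv.Perm I} (hg : IsMo φ g π) (c : I) : φ g (π c) c ≠ 0 :=
  (hg _ _).2 rfl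

theorem IsMo.ne_zero' {g : G} {π : Equiv.Perm I} (hg : IsMo φ g π) (r : I) : φ g r (π⁻¹ r) ≠ 0 :=
  (hg _ _).2 (by simp)

theorem IsMo.mul {g g' : G} {π π' : Equiv.Perm I} (hg : IsMo φ g π) (hg' : IsMo φ g' π') :
    IsMo φ (g * g') (π * π') := by
  intro r c
  rw [map_mul, hg'.mul_apply]
  constructor
  · intro h
    exact (hg _ _).1 (left_ne_zero_of_mul h)
  · intro h
    exact mul_ne_zero ((hg _ _).2 h) (hg'.ne_zero c)

theorem IsMo.unique {g : G} {π π' : Equiv.Perm I} (hg : IsMo φ g π) (hg' : IsMo φ g π') : π = π' := by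
  ext c
  rw [(hg' _ _).1 (hg.ne_zero c)]

theorem IsMo.exists_inv [Finite G] {g : G} {π : Equiv.Perm I} (hg : IsMo φ g π) : ∃ σ, IsMo φ g⁻¹ σ := by
  let M : Submonoid G :=
    { carrier := {g | ∃ π, IsMo φ g π}
      mul_mem' := by
        rintro a b ⟨π, h⟩ ⟨π', h'⟩
        exact ⟨_, h.mul h'⟩
      one_mem' := ⟨1, isMo_one⟩ }
  exact inv_of_finite M (⟨π, hg⟩ : g ∈ M)

theorem IsMo.inv [Finite G] {g : G} {π : Equiv.Perm I} (hg : IsMo φ g π) : IsMo φ g⁻¹ π⁻¹ := by
  obtain ⟨σ, hσ⟩ := hg.exists_inv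
  have h1 := hg.mul hσ
  rw [mul_inv_cancel] at h1
  have h2 := h1.unique isMo_one
  have h3 : σ = π⁻¹ := eq_inv_of_mul_eq_one_right h2
  rwa [h3] at hσ

theorem IsMo.conj_apply [Finite G] {g : G} {π : Equiv.Perm I} (hg : IsMo φ g π) (M : Matrix I I F)
    (r c : I) :
    (φ g * M * φ g⁻¹) r c = φ g r (π⁻¹ r) * M (π⁻¹ r) (π⁻¹ c) * φ g⁻¹ (π⁻¹ c) c := by
  rw [hg.inv.mul_apply, hg.apply_mul]

theorem IsMo.diag_mul {g : G} {π : Equiv.Perm I} (hg : IsMo φ g π) (r : I) :
    φ g r (π⁻¹ r) * φ g⁻¹ (π⁻¹ r) r = 1 := by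
  have h1 : (φ g * φ g⁻¹) r r = 1 := by
    rw [phi_mul_inv]
    simp
  rw [hg.apply_mul] at h1
  exact h1

/-- The conjugate of a unitriangular element by a monomial element. -/
theorem conj_isU [Finite G] {g u : G} {π : Equiv.Perm I} (hg : IsMo φ g π) (hu : ∀ r, φ u r r = 1)
    (h : ∀ r c, r ≠ c → o c ≤ o r → φ u (π⁻¹ r) (π⁻¹ c) = 0) : IsU φ o (g * u * g⁻¹) := by
  constructor
  · intro r c hrc hc
    rw [map_mul, map_mul, hg.conj_apply, h r c hrc hc]
    simp
  · intro r
    rw [map_mul, map_mul, hg.conj_apply, hu, mul_one]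
    exact hg.diag_mul r

/-- A general entry of a conjugate by a monomial element. -/
theorem conj_apply' [Finite G] {g u : G} {π : Equiv.Perm I} (hg : IsMo φ g π) (r c : I) :
    φ (g * u * g⁻¹) r c = φ g r (π⁻¹ r) * φ u (π⁻¹ r) (π⁻¹ c) * φ g⁻¹ (π⁻¹ c) c := by
  rw [map_mul, map_mul, hg.conj_apply]

/-! ### Subgroups -/

variable (φ o) in
/-- The unitriangular subgroup. -/
def Uu [Finite G] : Subgroup G where
  carrier := {g | IsU φ o g}
  mul_mem' := IsU.mul
  one_mem' := isU_one
  inv_mem' := by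
    intro s hs
    let M : Submonoid G :=
      { carrier := {g | IsU φ o g}
        mul_mem' := IsU.mul
        one_mem' := isU_one }
    exact inv_of_finite M hs

variable (φ) in
/-- The monomial subgroup. -/
def Nn [Finite G] : Subgroup G where
  carrier := {g | ∃ π, IsMo φ g π}
  mul_mem' := by
    rintro a b ⟨π, h⟩ ⟨π', h'⟩
    exact ⟨_, h.mul h'⟩
  one_mem' := ⟨1, isMo_one⟩
  inv_mem' := by
    rintro s ⟨π, h⟩
    exact ⟨_, h.inv⟩

variable (φ) in
/-- The diagonal subgroup. -/
def Hh [Finite G] : Subgroup G where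
  carrier := {g | IsMo φ g 1}
  mul_mem' := fun {a b} ha hb => by
    have := IsMo.mul ha hb
    rwa [mul_one] at this
  one_mem' := isMo_one
  inv_mem' := fun {a} ha => by
    have := IsMo.inv ha
    rwa [inv_one] at this

section Sub

variable [Finite G]

theorem mem_Uu {g : G} : g ∈ Uu φ o ↔ IsU φ o g := Iff.rfl
theorem mem_Nn {g : G} : g ∈ Nn φ ↔ ∃ π, IsMo φ g π := Iff.rfl
theorem mem_Hh {g : G} : g ∈ Hh φ ↔ IsMo φ g 1 := Iff.rfl

theorem Hh_le_Nn : Hh φ ≤ Nn φ := fun _ h => ⟨1, h⟩

theorem Hh_norm_Nn {n h : G} (hn : n ∈ Nn φ) (hh : h ∈ Hh φ) : n * h * n⁻¹ ∈ Hh φ := by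
  obtain ⟨π, hπ⟩ := hn
  have h1 := (hπ.mul hh).mul hπ.inv
  rwa [mul_one, mul_inv_cancel] at h1

theorem Hh_norm_U {h u : G} (hh : IsMo φ h 1) (hu : IsU φ o u) : IsU φ o (h * u * h⁻¹) :=
  conj_isU hh hu.2 (fun r c hrc hc => hu.1 _ _ (by simpa using hrc) (by simpa using hc))

theorem perm_eq_one {π : Equiv.Perm I} (h : ∀ c, π c = c ∨ o (π c) < o c) : π = 1 := by
  have key : ∀ k : ℕ, ∀ c : I, o c = k → π c = c := by
    intro k
    induction k using Nat.strong_induction_on with
    | _ k ih =>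
      intro c hc
      by_contra hne
      have h1 : o (π c) < o c := (h c).resolve_left hne
      have h2 := ih (o (π c)) (by rw [← hc]; exact h1) (π c) rfl
      exact hne (π.injective h2)
  ext c
  simp [key _ c rfl]

/-- An element of the Borel subgroup is upper triangular. -/
theorem up_of_mem {b : G} (hb : b ∈ Uu φ o ⊔ Hh φ) {r c : I} (hrc : r ≠ c)
    (hc : o c ≤ o r) : φ b r c = 0 := by
  have hle : Hh φ ≤ Subgroup.normalizer (Uu φ o : Set G) := by
    intro h hh
    rw [Subgroup.mem_normalizer_iff]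
    intro u
    constructor
    · exact fun hu => Hh_norm_U hh hu
    · intro hu
      have h2 : IsMo φ h⁻¹ 1 := by
        have := IsMo.inv hh
        rwa [inv_one] at this
      have := Hh_norm_U h2 hu
      have e : h⁻¹ * (h * u * h⁻¹) * h⁻¹⁻¹ = u := by group
      rwa [e] at this
  have h1 := Subgroup.coe_mul_of_right_le_normalizer_left (Uu φ o) (Hh φ) hle
  have hb' : b ∈ (↑(Uu φ o ⊔ Hh φ) : Set G) := hb
  rw [h1] at hb'
  obtain ⟨u, hu, h, hh, rfl⟩ := hb'
  rw [map_mul, IsMo.mul_apply hh]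
  simp only [Equiv.Perm.one_apply]
  rw [hu.1 _ _ hrc hc, zero_mul]

theorem inf_eq : (Uu φ o ⊔ Hh φ) ⊓ Nn φ = Hh φ := by
  apply le_antisymm
  · rintro b ⟨hb, ⟨π, hπ⟩⟩
    have h1 : π = 1 := perm_eq_one fun c => by
      by_cases h0 : π c = c
      · exact Or.inl h0
      right
      by_contra h2
      exact hπ.ne_zero c (up_of_mem hb h0 (not_lt.1 h2))
    rw [h1] at hπ
    exact hπ
  · exact le_inf le_sup_right Hh_le_Nn

/-- The diagonal of a torus element. -/
noncomputable def dg : Hh φ →* (I → F) where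
  toFun t r := φ (t : G) r r
  map_one' := by
    funext r
    simp
  map_mul' := by
    intro a b
    funext r
    show φ ((a : G) * b) r r = _
    rw [map_mul, IsMo.mul_apply b.2]
    simp

theorem dg_apply (t : Hh φ) (r : I) : dg t r = φ (t : G) r r := rfl

theorem dg_injective (hφ : Function.Injective φ) : Function.Injective (dg (φ := φ)) := by
  intro a b h
  apply Subtype.ext
  apply hφ
  ext r c
  by_cases hrc : r = c
  · subst hrc
    exact congrFun h r
  · have h1 : ∀ t : Hh φ, φ (t : G) r c = 0 := by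
      intro t
      by_contra h2
      exact hrc ((t.2 r c).1 h2)
    rw [h1, h1]

theorem Hh_comm (hφ : Function.Injective φ) (a b : Hh φ) : a * b = b * a := by
  apply dg_injective hφ
  rw [map_mul, map_mul, mul_comm]

theorem Hh_cop (hφ : Function.Injective φ) {p : ℕ} [hp : Fact p.Prime] [CharP F p] :
    (Nat.card (Hh φ)).Coprime p := by
  rw [Nat.coprime_comm, hp.out.coprime_iff_not_dvd]
  intro hd
  obtain ⟨x, hx⟩ := exists_prime_orderOf_dvd_card' p hd
  have h1 : x ^ p = 1 := by
    rw [← hx]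
    exact pow_orderOf_eq_one x
  have h2 : dg x = 1 := by
    funext r
    have h3 := congrFun (congrArg dg h1) r
    rw [map_pow, map_one, Pi.pow_apply, Pi.one_apply] at h3
    have h4 : (dg x r - 1) ^ p = 0 := by
      rw [sub_pow_char, h3, one_pow, sub_self]
    exact sub_eq_zero.1 (pow_eq_zero_iff hp.out.ne_zero |>.1 h4)
  have h5 : x = 1 := dg_injective hφ (h2.trans (map_one _).symm)
  rw [h5, orderOf_one] at hx
  exact hp.out.one_lt.ne hx

/-! ### The unipotent subgroup is a `p`-group -/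

theorem nil_aux {N : Matrix I I F} (hN : ∀ r c, o c ≤ o r → N r c = 0) (k : ℕ) (r c : I)
    (h : (N ^ k) r c ≠ 0) : o r + k ≤ o c := by
  induction k generalizing r with
  | zero => 
    have : r = c := by
      by_contra hrc
      simp [Matrix.one_apply, hrc] at h
    subst this
    simp
  | succ k ih =>
    rw [pow_succ', Matrix.mul_apply] at h
    obtain ⟨s, -, hs⟩ := Finset.exists_ne_zero_of_sum_ne_zero h
    have h1 : N r s ≠ 0 := left_ne_zero_of_mul hs
    have h2 : (N ^ k) s c ≠ 0 := right_ne_zero_of_mul hs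
    have h3 := ih s h2
    have h4 : o r < o s := by
      by_contra h5
      exact h1 (hN _ _ (not_lt.1 h5))
    omega

theorem isPGroup_Uu (hφ : Function.Injective φ) (p : ℕ) [hp : Fact p.Prime]
    [CharP F p] : IsPGroup p (Uu φ o) := by
  rw [IsPGroup]
  rintro ⟨u, hu⟩
  set K : ℕ := ∑ r, (o r + 1) with hK
  refine ⟨K + 1, ?_⟩
  apply Subtype.ext
  apply hφ
  rw [Subgroup.coe_pow, Subgroup.coe_mk, map_pow, Subgroup.coe_one, map_one]
  set N : Matrix I I F := φ u - 1 with hNd
  have hN : ∀ r c, o c ≤ o r → N r c = 0 := by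
    intro r c hc
    rw [hNd, Matrix.sub_apply]
    by_cases h : r = c
    · subst h
      rw [hu.2, Matrix.one_apply_eq, sub_self]
    · rw [hu.1 _ _ h hc, Matrix.one_apply_ne h, sub_zero]
  have hnil : N ^ p ^ (K + 1) = 0 := by
    ext r c
    by_contra h
    have h1 := nil_aux hN _ r c h
    have h2 : K + 1 < p ^ (K + 1) := Nat.lt_pow_self hp.out.one_lt
    have h3 : o c + 1 ≤ K := by
      rw [hK]
      exact Finset.single_le_sum (f := fun r => o r + 1) (fun _ _ => Nat.zero_le _) (Finset.mem_univ c)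
    omega
  have e : φ u = N + 1 := by rw [hNd]; abel
  rw [e]
  by_cases hI : Nonempty I
  · haveI : CharP (Matrix I I F) p := Matrix.charP p
    rw [add_pow_char_pow_of_commute p (K + 1) (Commute.one_right N), hnil, one_pow, zero_add]
  · have : IsEmpty I := not_nonempty_iff.1 hI
    ext r
    exact (this.false r).elim

/-- Entries next to the diagonal add up under multiplication. -/
theorem consec_mul {u v : G} (hu : IsU φ o u) (hv : IsU φ o v) {a b : I}
    (hab : o b = o a + 1) : φ (u * v) a b = φ u a b + φ v a b := by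
  have hne : a ≠ b := fun e => by subst e; omega
  rw [map_mul, Matrix.mul_apply, Finset.sum_eq_add a b hne]
  · rw [hu.2, hv.2, one_mul, mul_one, add_comm]
  · intro k _ hk
    by_cases h1 : o k ≤ o a
    · rw [hu.1 _ _ (Ne.symm hk.1) h1, zero_mul]
    · rw [hv.1 _ _ hk.2 (by omega), mul_zero]
  · simp
  · simp

theorem inv_consec {u : G} (hu : IsU φ o u) {a b : I}
    (hab : o b = o a + 1) : φ u⁻¹ a b = - φ u a b := by
  have hu' : IsU φ o u⁻¹ := (Uu φ o).inv_mem hu
  have h1 := consec_mul hu hu' hab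
  have hne : a ≠ b := fun e => by subst e; omega
  rw [mul_inv_cancel, map_one, Matrix.one_apply_ne hne] at h1
  linear_combination -h1

end Sub

end Cfsg.Agent.Lib.TwBN.Mat
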